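/-
Finite groups in which `p`-subgroups of equal order are conjugate: the Sylow `p`-subgroups are cyclic,
of exponent `p`, or quaternion of order eight.
-/
import Cfsg.Agent.S0016
import Cfsg.Agent.Lib.ZStar.Main
import Cfsg.Agent.Lib.ZStar.Quat
import Cfsg.Agent.Lib.FPF.UniqueOrderP
import Cfsg.Agent.Lib.Core.Basic

set_option autoImplicit false
set_option linter.style.haveILetI false
set_option linter.unusedSectionVars false

namespace Cfsg.Agent.Lib.PConj.Basic

open Subgroup
open scoped Pointwise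
open Cfsg

universe u

/-- Any two `p`-subgroups of the same order are conjugate. -/
def HD (p : ℕ) (G : Type u) [Group G] : Prop :=
  ∀ H K : Subgroup G, IsPGroup p H → IsPGroup p K → Nat.card H = Nat.card K →
    ∃ g : G, K = H.map (MulAut.conj g).toMonoidHom

variable {G : Type u} [Group G] [Finite G] {p : ℕ} [hp : Fact p.Prime]

theorem cyclic_of_HD (h : HD p G) {H K : Subgroup G} (hH : IsPGroup p H) (hK : IsPGroup p K)
    (hc : Nat.card H = Nat.card K) (hcyc : IsCyclic H) : IsCyclic K := by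
  obtain ⟨g, rfl⟩ := h H K hH hK hc
  let e : H ≃* H.map (MulAut.conj g).toMonoidHom :=
    H.equivMapOfInjective _ (MulEquiv.injective _)
  exact isCyclic_of_surjective e e.surjective

theorem comm_of_HD (h : HD p G) {H K : Subgroup G} (hH : IsPGroup p H) (hK : IsPGroup p K)
    (hc : Nat.card H = Nat.card K) (hcomm : IsMulCommutative H) : IsMulCommutative K := by
  obtain ⟨g, rfl⟩ := h H K hH hK hc
  let e : H ≃* H.map (MulAut.conj g).toMonoidHom :=
    H.equivMapOfInjective _ (MulEquiv.injective _)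
  refine ⟨⟨fun a b => ?_⟩⟩
  have h1 := hcomm.is_comm.comm (e.symm a) (e.symm b)
  have h2 := congrArg e h1
  simp only [map_mul, MulEquiv.apply_symm_apply] at h2
  exact h2

/-- The order of a join with a normal subgroup meeting trivially. -/
theorem card_sup_of_normal {A : Type*} [Group A] [Finite A] (H Z : Subgroup A) [Z.Normal]
    (hd : H ⊓ Z = ⊥) : Nat.card (H ⊔ Z : Subgroup A) = Nat.card H * Nat.card Z := by
  have h1 : Z.relIndex (H ⊔ Z) = Z.relIndex H := relIndex_sup_right H Z
  have h2 : Z.relIndex H = Nat.card H := by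
    rw [← inf_relIndex_left, hd, relIndex_bot_left]
  have h3 := relIndex_mul_relIndex (⊥ : Subgroup A) Z (H ⊔ Z) bot_le le_sup_right
  rw [relIndex_bot_left, relIndex_bot_left, h1, h2] at h3
  rw [← h3, mul_comm]

/-- A nontrivial finite `p`-group has an element of order `p`. -/
theorem exists_orderOf {A : Type*} [Group A] [Finite A] [Nontrivial A] (hA : IsPGroup p A) :
    ∃ a : A, orderOf a = p := by
  have h1 := hA.card_eq_or_dvd
  rcases h1 with h1 | h1
  · exact absurd h1 Finite.one_lt_card.ne'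
  · exact exists_prime_orderOf_dvd_card' p h1

/-- A central element of order `p`. -/
theorem exists_central {A : Type*} [Group A] [Finite A] [Nontrivial A] (hA : IsPGroup p A) :
    ∃ z : A, orderOf z = p ∧ z ∈ center A := by
  haveI := hA.center_nontrivial
  obtain ⟨z, hz⟩ := exists_orderOf (hA.to_subgroup (center A))
  exact ⟨z, by rw [Subgroup.orderOf_coe]; exact hz, z.2⟩

theorem normal_zpowers_of_central {A : Type*} [Group A] {z : A} (hz : z ∈ center A) :
    (zpowers z).Normal := by
  refine ⟨fun n hn g => ?_⟩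
  obtain ⟨k, rfl⟩ := mem_zpowers_iff.mp hn
  have : g * z ^ k * g⁻¹ = z ^ k := by
    have h1 : Commute g (z ^ k) := (Commute.zpow_right (mem_center_iff.mp hz g) k)
    rw [h1.eq]
    group
  rw [this]
  exact zpow_mem (mem_zpowers z) k

/-- In a `p`-group all of whose subgroups of order `p ^ 2` are cyclic, the subgroup of order `p` is
unique. -/
theorem unique_of_cyclic_sq {A : Type*} [Group A] [Finite A] [Nontrivial A] (hA : IsPGroup p A)
    (hc : ∀ L : Subgroup A, Nat.card L = p ^ 2 → IsCyclic L) (H K : Subgroup A)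
    (hH : Nat.card H = p) (hK : Nat.card K = p) : H = K := by
  obtain ⟨z, hzo, hzc⟩ := exists_central hA
  haveI := normal_zpowers_of_central hzc
  have hcz : Nat.card (zpowers z) = p := by rw [Nat.card_zpowers, hzo]
  have key : ∀ H : Subgroup A, Nat.card H = p → H = zpowers z := by
    intro H hH
    by_contra hne
    have hbot : H ⊓ zpowers z = ⊥ := by
      have h1 : Nat.card (H ⊓ zpowers z : Subgroup A) ∣ Nat.card H :=
        Subgroup.card_dvd_of_le inf_le_left
      rw [hH] at h1
      rcases (Nat.dvd_prime hp.out).mp h1 with h2 | h2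
      · exact Subgroup.eq_bot_of_card_eq _ h2
      · exfalso
        have h3 : H ⊓ zpowers z = H :=
          Subgroup.eq_of_le_of_card_ge inf_le_left (by rw [h2, hH])
        have h4 : H ≤ zpowers z := inf_eq_left.mp h3
        exact hne (Subgroup.eq_of_le_of_card_ge h4 (by rw [hH, hcz]))
    have hcard : Nat.card (H ⊔ zpowers z : Subgroup A) = p ^ 2 := by
      rw [card_sup_of_normal H (zpowers z) hbot, hH, hcz, sq]
    haveI := hc _ hcard
    have e1 : Nat.card (H.subgroupOf (H ⊔ zpowers z)) =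
        Nat.card ((zpowers z).subgroupOf (H ⊔ zpowers z)) := by
      rw [Nat.card_congr (subgroupOfEquivOfLe le_sup_left).toEquiv,
        Nat.card_congr (subgroupOfEquivOfLe le_sup_right).toEquiv, hH, hcz]
    have e2 := Cfsg.Agent.Lib.FPF.UniqueOrderP.subgroup_eq_of_card_eq e1
    apply hne
    have e3 := congrArg (Subgroup.map (H ⊔ zpowers z).subtype) e2
    rwa [subgroupOf_map_subtype, subgroupOf_map_subtype, inf_of_le_left le_sup_left,
      inf_of_le_left le_sup_right] at e3
  rw [key H hH, key K hK]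

/-- Squares in a generalised quaternion group lie in the cyclic part. -/
theorem not_sq_xa {m : ℕ} (w : QuaternionGroup m) (i : ZMod (2 * m)) : w ^ 2 ≠ QuaternionGroup.xa i := by
  rcases w with j | j
  · simp [sq]
  · simp [sq]

/-- Sylow subgroups for `p = 2`: the big quaternion groups do not occur. -/
theorem not_big_quat (h : HD 2 G) (P : Sylow 2 G) {m : ℕ} (hm : 4 ∣ m) [NeZero m]
    (e : (P : Subgroup G) ≃* QuaternionGroup m) : False := by
  classical
  haveI : Fact (Nat.Prime 2) := ⟨Nat.prime_two⟩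
  set P₀ : Subgroup G := (P : Subgroup G) with hP₀
  have hPg : IsPGroup 2 P₀ := P.2
  have hcardP : Nat.card P₀ = 4 * m := by
    rw [Nat.card_congr e.toEquiv, Nat.card_eq_fintype_card, QuaternionGroup.card]
  have hm0 : m ≠ 0 := NeZero.ne m
  -- an element of order 8
  have h8 : orderOf ((QuaternionGroup.a 1 : QuaternionGroup m) ^ (2 * m / 8)) = 8 := by
    have h0 : orderOf (QuaternionGroup.a 1 : QuaternionGroup m) = 2 * m :=
      QuaternionGroup.orderOf_a_one
    have := orderOf_pow_orderOf_div (x := (QuaternionGroup.a 1 : QuaternionGroup m)) (n := 8)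
      (by rw [h0]; omega) (by rw [h0]; omega)
    rwa [h0] at this
  set y₈ : P₀ := e.symm ((QuaternionGroup.a 1 : QuaternionGroup m) ^ (2 * m / 8)) with hy₈
  have hy₈o : orderOf (y₈ : G) = 8 := by
    rw [Subgroup.orderOf_coe, hy₈, MulEquiv.orderOf_eq, h8]
  have hZ8 : IsPGroup 2 (zpowers (y₈ : G)) := IsPGroup.of_card (n := 3)
    (by rw [Nat.card_zpowers, hy₈o]; norm_num)
  have hc8 : Nat.card (zpowers (y₈ : G)) = 8 := by rw [Nat.card_zpowers, hy₈o]
  have hcyc8 : ∀ K : Subgroup G, IsPGroup 2 K → Nat.card K = 8 → IsCyclic K := fun K hK hKc =>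
    cyclic_of_HD h hZ8 hK (by rw [hc8, hKc]) inferInstance
  -- an element of order 4
  have h4 : orderOf (QuaternionGroup.xa 0 : QuaternionGroup m) = 4 := QuaternionGroup.orderOf_xa 0
  set y₄ : P₀ := e.symm (QuaternionGroup.xa 0) with hy₄
  have hy₄o : orderOf y₄ = 4 := by rw [hy₄, MulEquiv.orderOf_eq, h4]
  have hc4 : Nat.card (zpowers y₄) = 2 ^ 2 := by rw [Nat.card_zpowers, hy₄o]; norm_num
  obtain ⟨K, hK, hle⟩ := Sylow.exists_subgroup_card_pow_succ (G := P₀) (p := 2) (n := 2)
    (by rw [hcardP]; obtain ⟨c, rfl⟩ := hm; exact ⟨2 * c, by ring⟩) hc4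
  -- `K` is cyclic
  have hKmap : Nat.card (K.map P₀.subtype) = 8 := by
    rw [Nat.card_congr (K.equivMapOfInjective P₀.subtype P₀.subtype_injective).symm.toEquiv, hK]
    norm_num
  have hKp : IsPGroup 2 (K.map P₀.subtype) := (hPg.to_subgroup K).map P₀.subtype
  have hKcyc := hcyc8 _ hKp hKmap
  have hKcyc' : IsCyclic K :=
    isCyclic_of_surjective (K.equivMapOfInjective P₀.subtype P₀.subtype_injective).symm
      (MulEquiv.surjective _)
  obtain ⟨g₀, hg₀⟩ := IsCyclic.exists_generator (α := K)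
  have hg₀o : orderOf g₀ = 8 := by
    rw [orderOf_eq_card_of_forall_mem_zpowers hg₀, hK]
    norm_num
  have hy₄K : y₄ ∈ K := hle (mem_zpowers _)
  obtain ⟨k, hk⟩ := mem_zpowers_iff.mp (hg₀ ⟨y₄, hy₄K⟩)
  have hk4 : g₀ ^ (4 * k) = 1 := by
    rw [mul_comm, zpow_mul, hk]
    apply Subtype.ext
    simp only [zpow_ofNat, Subgroup.coe_pow, Subgroup.coe_one]
    rw [← hy₄o]
    exact pow_orderOf_eq_one y₄
  have hdvd : (8 : ℤ) ∣ 4 * k := by
    have := orderOf_dvd_iff_zpow_eq_one.mpr hk4
    rwa [hg₀o] at this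
  obtain ⟨l, hl⟩ : (2 : ℤ) ∣ k := by omega
  have hw : (((g₀ ^ l : K) : P₀)) ^ 2 = y₄ := by
    have h1 : (g₀ ^ l) ^ 2 = (⟨y₄, hy₄K⟩ : K) := by
      rw [← hk, hl, ← zpow_natCast, ← zpow_mul]
      congr 1
      ring
    have := congrArg Subtype.val h1
    simpa using this
  have h5 := congrArg e hw
  rw [map_pow, hy₄, MulEquiv.apply_symm_apply] at h5
  exact not_sq_xa _ _ h5

/-- The trichotomy for a Sylow `p`-subgroup. -/
theorem tri (h : HD p G) (P : Sylow p G) :
    IsCyclic P ∨ (p = 2 ∧ Nonempty ((P : Subgroup G) ≃* QuaternionGroup 2)) ∨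
      ∀ x ∈ (P : Subgroup G), x ^ p = 1 := by
  classical
  by_cases hexp : ∀ x ∈ (P : Subgroup G), x ^ p = 1
  · exact Or.inr (Or.inr hexp)
  push Not at hexp
  obtain ⟨x, hxP, hxp⟩ := hexp
  set P₀ : Subgroup G := (P : Subgroup G) with hP₀
  have hPg : IsPGroup p P₀ := P.2
  obtain ⟨k, hk⟩ := (IsPGroup.iff_orderOf.mp hPg) ⟨x, hxP⟩
  rw [Subgroup.orderOf_mk] at hk
  have hk2 : 2 ≤ k := by
    by_contra hk2
    apply hxp
    have h1 : k ≤ 1 := by omega
    have h2 : orderOf x ∣ p := by
      rw [hk]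
      calc p ^ k ∣ p ^ 1 := pow_dvd_pow p h1
        _ = p := pow_one p
    exact orderOf_dvd_iff_pow_eq_one.mp h2
  have hpk : p ^ 2 ∣ orderOf x := by rw [hk]; exact pow_dvd_pow p hk2
  have hy : orderOf (x ^ (orderOf x / p ^ 2)) = p ^ 2 :=
    orderOf_pow_orderOf_div (by rw [hk]; exact (pow_pos hp.out.pos k).ne') hpk
  have hZ : IsPGroup p (zpowers (x ^ (orderOf x / p ^ 2))) := IsPGroup.of_card (n := 2)
    (by rw [Nat.card_zpowers, hy])
  have hcZ : Nat.card (zpowers (x ^ (orderOf x / p ^ 2))) = p ^ 2 := by rw [Nat.card_zpowers, hy]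
  have hcyc : ∀ L : Subgroup P₀, Nat.card L = p ^ 2 → IsCyclic L := by
    intro L hL
    have h1 : Nat.card (L.map P₀.subtype) = p ^ 2 := by
      rw [Nat.card_congr (L.equivMapOfInjective P₀.subtype P₀.subtype_injective).symm.toEquiv, hL]
    have h2 : IsCyclic (L.map P₀.subtype) :=
      cyclic_of_HD h hZ ((hPg.to_subgroup L).map P₀.subtype) (by rw [hcZ, h1]) inferInstance
    exact isCyclic_of_surjective (L.equivMapOfInjective P₀.subtype P₀.subtype_injective).symm
      (MulEquiv.surjective _)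
  haveI : Nontrivial P₀ := by
    refine ⟨⟨⟨x, hxP⟩, 1, fun he => hxp ?_⟩⟩
    have : x = 1 := congrArg Subtype.val he
    rw [this, one_pow]
  rcases Cfsg.Agent.S0016.result p hPg (unique_of_cyclic_sq hPg hcyc) with h1 | ⟨hp2, n, ⟨e⟩⟩
  · exact Or.inl h1
  · subst hp2
    rcases n with _ | _ | n
    · left
      haveI := QuaternionGroup.quaternionGroup_one_isCyclic
      have e' : P₀ ≃* QuaternionGroup 1 := e
      exact isCyclic_of_surjective e'.symm e'.symm.surjective
    · right; left
      exact ⟨rfl, ⟨e⟩⟩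
    · exfalso
      have hm : 4 ∣ 2 ^ (n + 1 + 1) := ⟨2 ^ n, by ring⟩
      haveI : NeZero (2 ^ (n + 1 + 1)) := ⟨by positivity⟩
      exact not_big_quat h P hm e

end Cfsg.Agent.Lib.PConj.Basic
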