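/-
Groups of exponent `p`: subgroups of order `p ^ 3`, abelian and nonabelian ones.
-/
import Cfsg.Agent.Lib.PConj.Basic

set_option autoImplicit false
set_option linter.style.haveILetI false
set_option linter.unusedSectionVars false

namespace Cfsg.Agent.Lib.PConj.Cubes

open Subgroup
open Cfsg
open Cfsg.Agent.Lib.PConj.Basic

universe u

variable {p : ℕ} [hp : Fact p.Prime]

theorem comm_of_equiv {A B : Type*} [Group A] [Group B] (e : A ≃* B) (h : IsMulCommutative A) :
    IsMulCommutative B := by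
  refine ⟨⟨fun a b => ?_⟩⟩
  have h1 := h.is_comm.comm (e.symm a) (e.symm b)
  have h2 := congrArg e h1
  simp only [map_mul, MulEquiv.apply_symm_apply] at h2
  exact h2

/-- A nonabelian `p`-group has a nontrivial central commutator. -/
theorem exists_xyc {A : Type*} [Group A] [Finite A] (hA : IsPGroup p A)
    (hnc : ¬ IsMulCommutative A) :
    ∃ x y : A, y * x * y⁻¹ * x⁻¹ ≠ 1 ∧ y * x * y⁻¹ * x⁻¹ ∈ center A := by
  have hQ : IsPGroup p (A ⧸ center A) := hA.to_quotient _
  haveI : Nontrivial (A ⧸ center A) := by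
    by_contra hn
    rw [not_nontrivial_iff_subsingleton] at hn
    apply hnc
    refine ⟨⟨fun a b => ?_⟩⟩
    have h1 : ((a : A ⧸ center A)) = 1 := Subsingleton.elim _ _
    have h2 : a ∈ center A := (QuotientGroup.eq_one_iff a).mp h1
    exact (mem_center_iff.mp h2 b).symm
  haveI := hQ.center_nontrivial
  obtain ⟨z, hz⟩ := exists_ne (1 : center (A ⧸ center A))
  obtain ⟨x, hx⟩ := QuotientGroup.mk_surjective (z : A ⧸ center A)
  have hxc : x ∉ center A := by
    intro h
    apply hz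
    apply Subtype.ext
    rw [← hx]
    exact (QuotientGroup.eq_one_iff x).mpr h
  rw [mem_center_iff] at hxc
  push Not at hxc
  obtain ⟨y, hy⟩ := hxc
  refine ⟨x, y, ?_, ?_⟩
  · intro h
    apply hy
    have h2 : y * x * y⁻¹ = x := by
      have := congrArg (· * x) h
      simpa using this
    have h3 := congrArg (· * y) h2
    simpa using h3
  · rw [← QuotientGroup.eq_one_iff]
    have h1 := mem_center_iff.mp z.2 (y : A ⧸ center A)
    rw [← hx] at h1
    have e : ((y * x * y⁻¹ * x⁻¹ : A) : A ⧸ center A) =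
        (y : A ⧸ center A) * (x : A ⧸ center A) * (y : A ⧸ center A)⁻¹ * (x : A ⧸ center A)⁻¹ := rfl
    rw [e, h1]
    group

/-- A group of order at most `p ^ 2` which is a `p`-group is abelian. -/
theorem comm_of_card_le {A : Type*} [Group A] [Finite A] {n : ℕ} (hn : n ≤ 2)
    (hc : Nat.card A = p ^ n) : IsMulCommutative A := by
  interval_cases n
  · rw [pow_zero] at hc
    haveI := (Nat.card_eq_one_iff_unique.mp hc).1
    exact ⟨⟨fun a b => Subsingleton.elim _ _⟩⟩
  · rw [pow_one] at hc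
    haveI := isCyclic_of_prime_card hc
    exact IsCyclic.isMulCommutative
  · exact IsPGroup.isMulCommutative_of_card_eq_prime_sq hc

section NF

variable {A : Type*} [Group A]

theorem pow_mul_eq {x y c : A} (hc : ∀ g, Commute g c) (h : y * x * y⁻¹ * x⁻¹ = c) (j a : ℕ) :
    y ^ j * x ^ a = c ^ (j * a) * x ^ a * y ^ j := by
  have h0 : y * x = c * x * y := by rw [← h]; group
  have hck : ∀ k : ℕ, ∀ g, Commute g (c ^ k) := fun k g => (hc g).pow_right k
  have h1 : ∀ j : ℕ, y ^ j * x = c ^ j * x * y ^ j := by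
    intro j
    induction j with
    | zero => simp
    | succ j ih =>
      calc y ^ (j + 1) * x = y ^ j * (y * x) := by rw [pow_succ, mul_assoc]
        _ = y ^ j * (c * x * y) := by rw [h0]
        _ = y ^ j * c * (x * y) := by group
        _ = c * y ^ j * (x * y) := by rw [(hc (y ^ j)).eq]
        _ = c * (y ^ j * x) * y := by group
        _ = c * (c ^ j * x * y ^ j) * y := by rw [ih]
        _ = c ^ (j + 1) * x * y ^ (j + 1) := by
            rw [pow_succ c j, pow_succ y j, (hc (c ^ j)).eq]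
            group
  induction a with
  | zero => simp
  | succ a ih =>
    calc y ^ j * x ^ (a + 1) = (y ^ j * x ^ a) * x := by rw [pow_succ, mul_assoc]
      _ = (c ^ (j * a) * x ^ a * y ^ j) * x := by rw [ih]
      _ = c ^ (j * a) * x ^ a * (y ^ j * x) := by group
      _ = c ^ (j * a) * x ^ a * (c ^ j * x * y ^ j) := by rw [h1]
      _ = c ^ (j * a) * (x ^ a * c ^ j) * (x * y ^ j) := by group
      _ = c ^ (j * a) * (c ^ j * x ^ a) * (x * y ^ j) := by rw [(hck j (x ^ a)).eq]
      _ = c ^ (j * (a + 1)) * x ^ (a + 1) * y ^ j := by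
          rw [mul_add, mul_one, pow_add c, pow_succ x a]
          group

theorem nf_mul {x y c : A} (hc : ∀ g, Commute g c) (h : y * x * y⁻¹ * x⁻¹ = c)
    (i j k a b d : ℕ) :
    (x ^ i * y ^ j * c ^ k) * (x ^ a * y ^ b * c ^ d) =
      x ^ (i + a) * y ^ (j + b) * c ^ (j * a + k + d) := by
  have hck : ∀ k : ℕ, ∀ g, Commute g (c ^ k) := fun k g => (hc g).pow_right k
  calc (x ^ i * y ^ j * c ^ k) * (x ^ a * y ^ b * c ^ d)
      = x ^ i * y ^ j * (c ^ k * (x ^ a * y ^ b)) * c ^ d := by group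
    _ = x ^ i * y ^ j * ((x ^ a * y ^ b) * c ^ k) * c ^ d := by
        rw [(hck k (x ^ a * y ^ b)).eq]
    _ = x ^ i * (y ^ j * x ^ a) * y ^ b * (c ^ k * c ^ d) := by group
    _ = x ^ i * (c ^ (j * a) * x ^ a * y ^ j) * y ^ b * (c ^ k * c ^ d) := by
        rw [pow_mul_eq hc h j a]
    _ = (x ^ i * c ^ (j * a)) * x ^ a * y ^ j * y ^ b * (c ^ k * c ^ d) := by group
    _ = (c ^ (j * a) * x ^ i) * x ^ a * y ^ j * y ^ b * (c ^ k * c ^ d) := by
        rw [(hck (j * a) (x ^ i)).eq]
    _ = (x ^ i * x ^ a) * (y ^ j * y ^ b) * (c ^ (j * a) * (c ^ k * c ^ d)) := by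
        have h1 : Commute (x ^ i * x ^ a * (y ^ j * y ^ b)) (c ^ (j * a)) := hck _ _
        calc (c ^ (j * a) * x ^ i) * x ^ a * y ^ j * y ^ b * (c ^ k * c ^ d)
            = c ^ (j * a) * (x ^ i * x ^ a * (y ^ j * y ^ b)) * (c ^ k * c ^ d) := by group
          _ = (x ^ i * x ^ a * (y ^ j * y ^ b)) * c ^ (j * a) * (c ^ k * c ^ d) := by rw [h1.eq]
          _ = _ := by group
    _ = x ^ (i + a) * y ^ (j + b) * c ^ (j * a + k + d) := by
        rw [pow_add x, pow_add y, pow_add c, pow_add c, mul_assoc (c ^ (j * a))]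

end NF

/-- A nonabelian group of exponent `p` contains a nonabelian subgroup of order `p ^ 3`. -/
theorem exists_nonabelian_cube {A : Type*} [Group A] [Finite A] (hA : IsPGroup p A)
    (hexp : ∀ a : A, a ^ p = 1) (hnc : ¬ IsMulCommutative A) :
    ∃ K : Subgroup A, Nat.card K = p ^ 3 ∧ ¬ IsMulCommutative K := by
  classical
  obtain ⟨x, y, hne, hcen⟩ := exists_xyc hA hnc
  set c := y * x * y⁻¹ * x⁻¹ with hcdef
  have hc : ∀ g, Commute g c := fun g => mem_center_iff.mp hcen g
  let M : Submonoid A :=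
    { carrier := {a | ∃ i j k : ℕ, a = x ^ i * y ^ j * c ^ k}
      mul_mem' := by
        rintro _ _ ⟨i, j, k, rfl⟩ ⟨a, b, d, rfl⟩
        exact ⟨_, _, _, nf_mul hc hcdef.symm i j k a b d⟩
      one_mem' := ⟨0, 0, 0, by simp⟩ }
  let K : Subgroup A :=
    { M with
      inv_mem' := by
        intro a ha
        have h1 : a ^ (p - 1) ∈ M := M.pow_mem ha _
        have h2 : a ^ (p - 1) = a⁻¹ := by
          apply eq_inv_of_mul_eq_one_left
          rw [← pow_succ, Nat.sub_add_cancel hp.out.one_le, hexp]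
        rwa [h2] at h1 }
  have hmem : ∀ a, a ∈ K ↔ ∃ i j k : ℕ, a = x ^ i * y ^ j * c ^ k := fun a => Iff.rfl
  have hxK : x ∈ K := (hmem x).mpr ⟨1, 0, 0, by simp⟩
  have hyK : y ∈ K := (hmem y).mpr ⟨0, 1, 0, by simp⟩
  -- order at most `p ^ 3`
  have hcexp : c ^ p = 1 := hexp c
  have hle : Nat.card K ≤ p ^ 3 := by
    haveI : NeZero p := ⟨hp.out.ne_zero⟩
    have hcard : Nat.card (Fin p × Fin p × Fin p) = p ^ 3 := by
      simp only [Nat.card_eq_fintype_card, Fintype.card_prod, Fintype.card_fin]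
      ring
    rw [← hcard]
    refine Nat.card_le_card_of_surjective
      (fun t : Fin p × Fin p × Fin p => (⟨x ^ t.1.val * y ^ t.2.1.val * c ^ t.2.2.val,
        (hmem _).mpr ⟨_, _, _, rfl⟩⟩ : K)) ?_
    rintro ⟨a, ha⟩
    obtain ⟨i, j, k, rfl⟩ := (hmem a).mp ha
    refine ⟨(⟨i % p, Nat.mod_lt _ hp.out.pos⟩, ⟨j % p, Nat.mod_lt _ hp.out.pos⟩,
      ⟨k % p, Nat.mod_lt _ hp.out.pos⟩), ?_⟩
    apply Subtype.ext
    simp only
    rw [pow_eq_pow_mod i (hexp x), pow_eq_pow_mod j (hexp y), pow_eq_pow_mod k hcexp]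
  have hKp : IsPGroup p K := hA.to_subgroup K
  obtain ⟨n, hn⟩ := IsPGroup.iff_card.mp hKp
  have hn3 : n ≤ 3 := by
    rw [hn] at hle
    exact (Nat.pow_le_pow_iff_right hp.out.one_lt).mp hle
  have hncK : ¬ IsMulCommutative K := by
    intro hcomm
    apply hne
    have h1 := hcomm.is_comm.comm ⟨x, hxK⟩ ⟨y, hyK⟩
    have h2 : x * y = y * x := congrArg Subtype.val h1
    rw [hcdef, ← h2]
    group
  refine ⟨K, ?_, hncK⟩
  rw [hn]
  congr 1
  by_contra hne3
  exact hncK (comm_of_card_le (n := n) (by omega) hn)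

/-- A group of exponent `p` and order at least `p ^ 4` contains an abelian subgroup of order `p ^ 3`. -/
theorem exists_abelian_cube {A : Type*} [Group A] [Finite A] (hA : IsPGroup p A)
    (hexp : ∀ a : A, a ^ p = 1) (hcard : p ^ 4 ∣ Nat.card A) :
    ∃ K : Subgroup A, Nat.card K = p ^ 3 ∧ IsMulCommutative K := by
  classical
  have hAne : Nontrivial A := by
    apply Finite.one_lt_card_iff_nontrivial.mp
    have h1 : p ^ 4 ≤ Nat.card A := Nat.le_of_dvd Nat.card_pos hcard
    have h2 : 1 < p ^ 4 := Nat.one_lt_pow (by norm_num) hp.out.one_lt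
    omega
  obtain ⟨c₀, hc₀o, hc₀⟩ := exists_central hA
  haveI hZn : (zpowers c₀).Normal := normal_zpowers_of_central hc₀
  set Z := zpowers c₀ with hZ
  have hZc : Nat.card Z = p := by rw [hZ, Nat.card_zpowers, hc₀o]
  have hQ : IsPGroup p (A ⧸ Z) := hA.to_quotient _
  have hQc : Nat.card Z * Nat.card (A ⧸ Z) = Nat.card A := by
    rw [← Subgroup.index_eq_card]; exact Subgroup.card_mul_index Z
  haveI : Nontrivial (A ⧸ Z) := by
    apply Finite.one_lt_card_iff_nontrivial.mp
    by_contra hn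
    have h0 : Nat.card (A ⧸ Z) ≠ 0 := Nat.card_pos.ne'
    have h1 : Nat.card (A ⧸ Z) = 1 := by omega
    rw [h1, mul_one, hZc] at hQc
    have h2 : p ^ 4 ≤ p := by
      calc p ^ 4 ≤ Nat.card A := Nat.le_of_dvd Nat.card_pos hcard
        _ = p := hQc.symm
    have h3 : p ^ 1 < p ^ 4 := Nat.pow_lt_pow_right hp.out.one_lt (by norm_num)
    rw [pow_one] at h3
    omega
  obtain ⟨nb, hnbo, hnbc⟩ := exists_central hQ
  obtain ⟨n, rfl⟩ := QuotientGroup.mk_surjective nb
  have hnZ : n ∉ Z := by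
    intro h
    rw [(QuotientGroup.eq_one_iff n).mpr h, orderOf_one] at hnbo
    exact hp.out.one_lt.ne hnbo
  have hnp : n ^ p = 1 := hexp n
  have hno : orderOf n = p := orderOf_eq_prime hnp (fun h => hnZ (h ▸ one_mem _))
  have hcomZ : ∀ s : A, s * n * s⁻¹ * n⁻¹ ∈ Z := by
    intro s
    rw [← QuotientGroup.eq_one_iff]
    have h1 := mem_center_iff.mp hnbc (s : A ⧸ Z)
    have e : ((s * n * s⁻¹ * n⁻¹ : A) : A ⧸ Z) =
        (s : A ⧸ Z) * (n : A ⧸ Z) * (s : A ⧸ Z)⁻¹ * (n : A ⧸ Z)⁻¹ := rfl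
    rw [e, h1]
    group
  have hZcen : ∀ a ∈ Z, ∀ g : A, g * a = a * g := by
    intro a ha g
    obtain ⟨k, rfl⟩ := mem_zpowers_iff.mp ha
    exact (Commute.zpow_right (mem_center_iff.mp hc₀ g) k)
  -- the commutator homomorphism
  let f : A →* Z := MonoidHom.mk' (fun s => ⟨s * n * s⁻¹ * n⁻¹, hcomZ s⟩) (by
    intro s t
    apply Subtype.ext
    have h1 := hZcen _ (hcomZ t) s
    have h2 := hZcen _ (hcomZ t) (s * n * s⁻¹ * n⁻¹)
    show (s * t) * n * (s * t)⁻¹ * n⁻¹ = (s * n * s⁻¹ * n⁻¹) * (t * n * t⁻¹ * n⁻¹)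
    calc (s * t) * n * (s * t)⁻¹ * n⁻¹
        = s * (t * n * t⁻¹ * n⁻¹) * n * s⁻¹ * n⁻¹ := by group
      _ = (t * n * t⁻¹ * n⁻¹) * s * n * s⁻¹ * n⁻¹ := by rw [h1]
      _ = (t * n * t⁻¹ * n⁻¹) * (s * n * s⁻¹ * n⁻¹) := by group
      _ = (s * n * s⁻¹ * n⁻¹) * (t * n * t⁻¹ * n⁻¹) := by rw [h2])
  set C := f.ker with hC
  have hfker : ∀ s, s ∈ C ↔ s * n = n * s := by
    intro s
    rw [hC, MonoidHom.mem_ker]
    constructor
    · intro h
      have h1 : s * n * s⁻¹ * n⁻¹ = 1 := congrArg Subtype.val h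
      have h2 : s * n * s⁻¹ = n := by
        have := congrArg (· * n) h1
        simpa using this
      have h3 := congrArg (· * s) h2
      simpa using h3
    · intro h
      apply Subtype.ext
      show s * n * s⁻¹ * n⁻¹ = 1
      rw [h]
      group
  have hCcard : p ^ 3 ∣ Nat.card C := by
    have h1 : Nat.card C * Nat.card f.range = Nat.card A := by
      rw [← Subgroup.index_ker]; exact Subgroup.card_mul_index _
    have h2 : Nat.card f.range ∣ p := by
      rw [← hZc]
      exact Subgroup.card_subgroup_dvd_card _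
    have h3 : p ^ 4 ∣ Nat.card C * p := by
      calc p ^ 4 ∣ Nat.card A := hcard
        _ = Nat.card C * Nat.card f.range := h1.symm
        _ ∣ Nat.card C * p := Nat.mul_dvd_mul_left _ h2
    have h4 : p ^ 3 * p ∣ Nat.card C * p := by rwa [← pow_succ]
    exact Nat.dvd_of_mul_dvd_mul_right hp.out.pos h4
  have hnC : n ∈ C := (hfker n).mpr rfl
  have hcC : c₀ ∈ C := (hfker c₀).mpr (mem_center_iff.mp hc₀ n).symm
  let n' : C := ⟨n, hnC⟩
  let c' : C := ⟨c₀, hcC⟩
  have hn'cen : n' ∈ center C := by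
    rw [mem_center_iff]
    intro g
    apply Subtype.ext
    exact (hfker g.1).mp g.2
  have hc'cen : c' ∈ center C := by
    rw [mem_center_iff]
    intro g
    apply Subtype.ext
    exact mem_center_iff.mp hc₀ g.1
  haveI := normal_zpowers_of_central hc'cen
  have hn'o : orderOf n' = p := by rw [Subgroup.orderOf_mk]; exact hno
  have hc'o : orderOf c' = p := by rw [Subgroup.orderOf_mk]; exact hc₀o
  have hbot : zpowers n' ⊓ zpowers c' = ⊥ := by
    have h1 : Nat.card (zpowers n' ⊓ zpowers c' : Subgroup C) ∣ Nat.card (zpowers n') :=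
      Subgroup.card_dvd_of_le inf_le_left
    rw [Nat.card_zpowers, hn'o] at h1
    rcases (Nat.dvd_prime hp.out).mp h1 with h2 | h2
    · exact Subgroup.eq_bot_of_card_eq _ h2
    · exfalso
      have h3 : zpowers n' ⊓ zpowers c' = zpowers n' :=
        Subgroup.eq_of_le_of_card_ge inf_le_left (by rw [h2, Nat.card_zpowers, hn'o])
      have h4 : zpowers n' ≤ zpowers c' := inf_eq_left.mp h3
      have h5 : n' ∈ zpowers c' := h4 (mem_zpowers n')
      obtain ⟨k, hk⟩ := mem_zpowers_iff.mp h5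
      apply hnZ
      refine mem_zpowers_iff.mpr ⟨k, ?_⟩
      have := congrArg Subtype.val hk
      simpa [n', c'] using this
  set H : Subgroup C := zpowers n' ⊔ zpowers c' with hH
  have hHc : Nat.card H = p ^ 2 := by
    rw [hH, card_sup_of_normal _ _ hbot, Nat.card_zpowers, Nat.card_zpowers, hn'o, hc'o, sq]
  have hHcen : H ≤ center C := sup_le ((Subgroup.zpowers_le).mpr hn'cen)
    ((Subgroup.zpowers_le).mpr hc'cen)
  obtain ⟨K, hKc, hHK⟩ := Sylow.exists_subgroup_card_pow_succ (G := C) (p := p) (n := 2) hCcard hHc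
  -- `K` is abelian
  have hKcomm : IsMulCommutative K := by
    have h1 : H.subgroupOf K ≤ center K := by
      intro a ha
      rw [mem_center_iff]
      intro g
      apply Subtype.ext
      exact mem_center_iff.mp (hHcen (mem_subgroupOf.mp ha)) g.1
    have h2 : (center K).index ∣ (H.subgroupOf K).index := Subgroup.index_dvd_of_le h1
    have h3 : (H.subgroupOf K).index = p := by
      have h4 := Subgroup.card_mul_index (H.subgroupOf K)
      rw [Nat.card_congr (subgroupOfEquivOfLe hHK).toEquiv, hHc, hKc] at h4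
      have h5 : p ^ 2 * (H.subgroupOf K).index = p ^ 2 * p := by rw [h4]; ring
      exact Nat.eq_of_mul_eq_mul_left (pow_pos hp.out.pos 2) h5
    rw [h3, Subgroup.index_eq_card] at h2
    haveI : IsCyclic (K ⧸ center K) := isCyclic_of_card_dvd_prime h2
    exact isMulCommutative_of_isCyclic_quotient_center_self K
  refine ⟨K.map C.subtype, ?_, ?_⟩
  · rw [Nat.card_congr (K.equivMapOfInjective C.subtype C.subtype_injective).symm.toEquiv, hKc]
  · exact comm_of_equiv (K.equivMapOfInjective C.subtype C.subtype_injective) hKcomm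

/-- A nonabelian group of order `p ^ 3`. -/
theorem cube_struct {A : Type*} [Group A] [Finite A] (hA : IsPGroup p A)
    (hc : Nat.card A = p ^ 3) (hnc : ¬ IsMulCommutative A) :
    Nat.card (center A) = p ∧ ∀ u v : A, u * v * u⁻¹ * v⁻¹ ∈ center A := by
  have hAne : Nontrivial A := by
    apply Finite.one_lt_card_iff_nontrivial.mp
    rw [hc]
    exact Nat.one_lt_pow (by norm_num) hp.out.one_lt
  haveI := hA.center_nontrivial
  obtain ⟨a, ha⟩ := IsPGroup.iff_card.mp (hA.to_subgroup (center A))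
  have hmul : Nat.card (center A) * Nat.card (A ⧸ center A) = p ^ 3 := by
    rw [← Subgroup.index_eq_card, Subgroup.card_mul_index, hc]
  have hQdvd : Nat.card (A ⧸ center A) ∣ p ^ 3 := ⟨_, by rw [← hmul, mul_comm]⟩
  obtain ⟨b, hb3, hb⟩ := (Nat.dvd_prime_pow hp.out).mp hQdvd
  rw [ha, hb, ← pow_add] at hmul
  have hab : a + b = 3 := Nat.pow_right_injective hp.out.two_le hmul
  have ha0 : a ≠ 0 := by
    rintro rfl
    rw [pow_zero] at ha
    have := Finite.one_lt_card_iff_nontrivial.mpr (inferInstance : Nontrivial (center A))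
    omega
  have hb2 : 2 ≤ b := by
    by_contra hb2
    apply hnc
    have h1 : Nat.card (A ⧸ center A) ∣ p := by
      rw [hb]
      calc p ^ b ∣ p ^ 1 := pow_dvd_pow p (by omega)
        _ = p := pow_one p
    haveI : IsCyclic (A ⧸ center A) := isCyclic_of_card_dvd_prime h1
    exact isMulCommutative_of_isCyclic_quotient_center_self A
  have ha1 : a = 1 := by omega
  have hb2' : b = 2 := by omega
  refine ⟨by rw [ha, ha1, pow_one], fun u v => ?_⟩
  rw [hb2'] at hb
  have hQcomm := IsPGroup.isMulCommutative_of_card_eq_prime_sq (p := p) hb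
  rw [← QuotientGroup.eq_one_iff]
  have h1 := hQcomm.is_comm.comm (u : A ⧸ center A) (v : A ⧸ center A)
  have e : ((u * v * u⁻¹ * v⁻¹ : A) : A ⧸ center A) =
      (u : A ⧸ center A) * (v : A ⧸ center A) * (u : A ⧸ center A)⁻¹ * (v : A ⧸ center A)⁻¹ := rfl
  rw [e, h1]
  group

end Cfsg.Agent.Lib.PConj.Cubes
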