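/-
Sylow subgroups of exponent `p` in a group in which `p`-subgroups of equal order are conjugate.
-/
import Cfsg.Agent.Lib.PConj.Cubes

set_option autoImplicit false
set_option linter.style.haveILetI false
set_option linter.unusedSectionVars false

namespace Cfsg.Agent.Lib.PConj.Main

open Subgroup
open Cfsg
open Cfsg.Agent.Lib.PConj.Basic Cfsg.Agent.Lib.PConj.Cubes

universe u

variable {G : Type u} [Group G] [Finite G] {p : ℕ} [hp : Fact p.Prime]

/-- The order of a nonabelian subgroup of exponent `p`. -/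
theorem card_eq_cube (h : HD p G) (P : Subgroup G) (hP : IsPGroup p P)
    (hexp : ∀ a ∈ P, a ^ p = 1) (hnc : ¬ IsMulCommutative P) : Nat.card P = p ^ 3 := by
  have hexp' : ∀ a : P, a ^ p = 1 := fun a => Subtype.ext (by simpa using hexp a a.2)
  obtain ⟨K₁, hK₁, hK₁nc⟩ := exists_nonabelian_cube hP hexp' hnc
  have hle : p ^ 3 ∣ Nat.card P := hK₁ ▸ Subgroup.card_subgroup_dvd_card K₁
  obtain ⟨n, hn⟩ := IsPGroup.iff_card.mp hP
  rw [hn] at hle ⊢
  have hn3 : 3 ≤ n := (Nat.pow_dvd_pow_iff_le_right hp.out.one_lt).mp hle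
  congr 1
  by_contra hne
  have h4 : p ^ 4 ∣ Nat.card P := by
    rw [hn]
    exact pow_dvd_pow p (by omega)
  obtain ⟨K₂, hK₂, hK₂c⟩ := exists_abelian_cube hP hexp' h4
  apply hK₁nc
  have e₁ := K₁.equivMapOfInjective P.subtype P.subtype_injective
  have e₂ := K₂.equivMapOfInjective P.subtype P.subtype_injective
  have h5 : IsMulCommutative (K₁.map P.subtype) :=
    comm_of_HD h ((hP.to_subgroup K₂).map P.subtype) ((hP.to_subgroup K₁).map P.subtype)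
      (by rw [← Nat.card_congr e₁.toEquiv, ← Nat.card_congr e₂.toEquiv, hK₁, hK₂])
      (comm_of_equiv e₂ hK₂c)
  exact comm_of_equiv e₁.symm h5

/-- The structure of a nonabelian Sylow subgroup of exponent `p`. -/
def Str (S : Subgroup G) (z : G) : Prop :=
  (∀ s ∈ S, s * z = z * s) ∧ (∀ u ∈ S, ∀ v ∈ S, u * v * u⁻¹ * v⁻¹ ∈ zpowers z) ∧
    ∀ a ∈ S, (∀ s ∈ S, s * a = a * s) → a ∈ zpowers z

theorem mem_map_conj {S : Subgroup G} {g a : G} :
    a ∈ S.map (MulAut.conj g).toMonoidHom ↔ g⁻¹ * a * g ∈ S := by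
  constructor
  · rintro ⟨b, hb, rfl⟩
    have : g⁻¹ * ((MulAut.conj g).toMonoidHom b) * g = b := by
      simp [MulAut.conj_apply]
      group
    rwa [this]
  · intro h
    refine ⟨_, h, ?_⟩
    simp [MulAut.conj_apply]
    group

theorem Str.conj {S : Subgroup G} {z : G} (h : Str S z) (g : G) :
    Str (S.map (MulAut.conj g).toMonoidHom) (g * z * g⁻¹) := by
  refine ⟨?_, ?_, ?_⟩
  · intro s hs
    have h1 := h.1 _ (mem_map_conj.mp hs)
    calc s * (g * z * g⁻¹) = g * ((g⁻¹ * s * g) * z) * g⁻¹ := by group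
      _ = g * (z * (g⁻¹ * s * g)) * g⁻¹ := by rw [h1]
      _ = (g * z * g⁻¹) * s := by group
  · intro u hu v hv
    have h1 := h.2.1 _ (mem_map_conj.mp hu) _ (mem_map_conj.mp hv)
    obtain ⟨k, hk⟩ := mem_zpowers_iff.mp h1
    refine mem_zpowers_iff.mpr ⟨k, ?_⟩
    rw [conj_zpow, hk]
    group
  · intro a ha hc
    have h1 := h.2.2 _ (mem_map_conj.mp ha) (fun s hs => by
      have h2 := hc (g * s * g⁻¹) (mem_map_conj.mpr (by
        have : g⁻¹ * (g * s * g⁻¹) * g = s := by group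
        rwa [this]))
      calc s * (g⁻¹ * a * g) = g⁻¹ * ((g * s * g⁻¹) * a) * g := by group
        _ = g⁻¹ * (a * (g * s * g⁻¹)) * g := by rw [h2]
        _ = (g⁻¹ * a * g) * s := by group)
    obtain ⟨k, hk⟩ := mem_zpowers_iff.mp h1
    refine mem_zpowers_iff.mpr ⟨k, ?_⟩
    rw [conj_zpow, hk]
    group

theorem Str.of_zpowers_eq {S : Subgroup G} {z z' : G} (h : Str S z)
    (he : zpowers z' = zpowers z) : Str S z' := by
  refine ⟨?_, ?_, ?_⟩
  · intro s hs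
    have h1 : z' ∈ zpowers z := he ▸ mem_zpowers z'
    obtain ⟨k, rfl⟩ := mem_zpowers_iff.mp h1
    exact Commute.zpow_right (h.1 s hs) k
  · rw [he]; exact h.2.1
  · rw [he]; exact h.2.2

theorem isPGroup_zpowers {a : G} (ha : a ^ p = 1) : IsPGroup p (zpowers a) := by
  rcases (Nat.dvd_prime hp.out).mp (orderOf_dvd_of_pow_eq_one ha) with h1 | h1
  · exact IsPGroup.of_card (n := 0) (by rw [Nat.card_zpowers, h1, pow_zero])
  · exact IsPGroup.of_card (n := 1) (by rw [Nat.card_zpowers, h1, pow_one])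

/-- An element of a group of prime order generates. -/
theorem mem_zpowers_of_mem {x d : G} (hx : orderOf x = p) (hd : d ∈ zpowers x) (hd1 : d ≠ 1) :
    zpowers d = zpowers x := by
  have h1 : orderOf d ∣ p := hx ▸ orderOf_dvd_of_mem_zpowers hd
  have h2 : orderOf d = p := by
    rcases (Nat.dvd_prime hp.out).mp h1 with h3 | h3
    · exact absurd (orderOf_eq_one_iff.mp h3) hd1
    · exact h3
  exact Subgroup.eq_of_le_of_card_ge ((Subgroup.zpowers_le).mpr hd)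
    (by rw [Nat.card_zpowers, Nat.card_zpowers, h2, hx])

/-- Existence of the configuration inside `P`. -/
theorem exists_str (h : HD p G) (P : Subgroup G) (hP : IsPGroup p P)
    (hexp : ∀ a ∈ P, a ^ p = 1) (hnc : ¬ IsMulCommutative P) :
    ∃ x y c : G, x ∈ P ∧ y ∈ P ∧ c ∈ P ∧ y * x * y⁻¹ * x⁻¹ = c ∧ c ≠ 1 ∧ Str P c := by
  have hcard := card_eq_cube h P hP hexp hnc
  obtain ⟨hcc, hcomm⟩ := cube_struct hP hcard hnc
  obtain ⟨x, y, hne, hcen⟩ := exists_xyc hP hnc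
  set c := y * x * y⁻¹ * x⁻¹ with hc
  have hco : orderOf c = p := by
    refine orderOf_eq_prime ?_ hne
    apply Subtype.ext
    simpa using hexp c c.2
  have hcen' : center P = zpowers c := by
    symm
    apply Subgroup.eq_of_le_of_card_ge ((Subgroup.zpowers_le).mpr hcen)
    rw [hcc, Nat.card_zpowers, hco]
  refine ⟨x, y, c, x.2, y.2, c.2, ?_, ?_, ?_, ?_, ?_⟩
  · rw [hc]; rfl
  · intro h1
    exact hne (Subtype.ext h1)
  · intro s hs
    exact congrArg Subtype.val (mem_center_iff.mp hcen ⟨s, hs⟩)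
  · intro u hu v hv
    have h1 := hcomm ⟨u, hu⟩ ⟨v, hv⟩
    rw [hcen'] at h1
    obtain ⟨k, hk⟩ := mem_zpowers_iff.mp h1
    refine mem_zpowers_iff.mpr ⟨k, ?_⟩
    have := congrArg Subtype.val hk
    simpa using this
  · intro a ha hac
    have h1 : (⟨a, ha⟩ : P) ∈ center P := by
      rw [mem_center_iff]
      intro g
      exact Subtype.ext (hac g.1 g.2)
    rw [hcen'] at h1
    obtain ⟨k, hk⟩ := mem_zpowers_iff.mp h1
    refine mem_zpowers_iff.mpr ⟨k, ?_⟩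
    have := congrArg Subtype.val hk
    simpa using this

theorem exists_conj_mem_sylow {A : Type*} [Group A] [Finite A] (S : Sylow p A) (c : A)
    (hc : c ^ p = 1) : ∃ w : A, w * c * w⁻¹ ∈ (S : Subgroup A) := by
  have hP : IsPGroup p (zpowers c) := by
    rcases (Nat.dvd_prime hp.out).mp (orderOf_dvd_of_pow_eq_one hc) with h1 | h1
    · exact IsPGroup.of_card (n := 0) (by rw [Nat.card_zpowers, h1, pow_zero])
    · exact IsPGroup.of_card (n := 1) (by rw [Nat.card_zpowers, h1, pow_one])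
  obtain ⟨T, hT⟩ := hP.exists_le_sylow
  obtain ⟨w, hw⟩ := MulAction.exists_smul_eq A T S
  refine ⟨w, ?_⟩
  rw [← hw, Sylow.coe_subgroup_smul]
  exact Subgroup.smul_mem_pointwise_smul c (MulAut.conj w) (T : Subgroup A) (hT (mem_zpowers c))

/-- The configuration: an element of order `p` inverted by a square. -/
theorem exists_inverter (h : HD p G) (P : Sylow p G) (hexp : ∀ a ∈ (P : Subgroup G), a ^ p = 1)
    (hnc : ¬ IsMulCommutative (P : Subgroup G)) :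
    ∃ x y₁ y₂ : G, ∃ e : ℕ, x ^ p = 1 ∧ x ≠ 1 ∧ y₁ ^ p = 1 ∧ y₂ ^ p = 1 ∧
      ((y₂ * y₁ ^ e * y₂) * (y₂ * y₁ ^ e * y₂)) * x * ((y₂ * y₁ ^ e * y₂) * (y₂ * y₁ ^ e * y₂))⁻¹ =
        x⁻¹ := by
  classical
  have hPg : IsPGroup p (P : Subgroup G) := P.2
  obtain ⟨x, y, c, hxP, hyP, hcP, hcdef, hc1, hstr⟩ := exists_str h (P : Subgroup G) hPg hexp hnc
  have hcp : c ^ p = 1 := hexp c hcP
  have hco : orderOf c = p := orderOf_eq_prime hcp hc1
  have hxp : x ^ p = 1 := hexp x hxP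
  have hx1 : x ≠ 1 := by
    rintro rfl
    apply hc1
    rw [← hcdef]
    group
  have hxo : orderOf x = p := orderOf_eq_prime hxp hx1
  -- move `c` to `x`
  obtain ⟨g, hg⟩ := h (zpowers c) (zpowers x) (isPGroup_zpowers hcp) (isPGroup_zpowers hxp)
    (by rw [Nat.card_zpowers, Nat.card_zpowers, hco, hxo])
  rw [MonoidHom.map_zpowers] at hg
  set S₁ : Sylow p G := g • P with hS₁
  have hS₁c : (S₁ : Subgroup G) = (P : Subgroup G).map (MulAut.conj g).toMonoidHom := by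
    rw [hS₁, Sylow.coe_subgroup_smul]
    rfl
  have hstr₁ : Str (S₁ : Subgroup G) x := by
    rw [hS₁c]
    exact (hstr.conj g).of_zpowers_eq hg
  -- the centralizer of `x`
  set W := Subgroup.centralizer ({x} : Set G) with hW
  have hle : (S₁ : Subgroup G) ≤ W := fun s hs =>
    mem_centralizer_singleton_iff.mpr (hstr₁.1 s hs)
  have hcW : c ∈ W := mem_centralizer_singleton_iff.mpr (hstr.1 x hxP).symm
  obtain ⟨w, hw⟩ := exists_conj_mem_sylow (S₁.subtype hle) (⟨c, hcW⟩ : W)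
    (Subtype.ext (by simpa using hcp))
  rw [Sylow.coe_subtype, mem_subgroupOf] at hw
  have hwx : (w : G) * x = x * w := mem_centralizer_singleton_iff.mp w.2
  have hwx' : (w : G) * x * (w : G)⁻¹ = x := by rw [hwx]; group
  set c₁ : G := (w : G) * c * (w : G)⁻¹ with hc₁
  have hc₁S : c₁ ∈ (S₁ : Subgroup G) := by
    have : ((w * ⟨c, hcW⟩ * w⁻¹ : W) : G) = c₁ := rfl
    rwa [this] at hw
  set y₂ : G := (w : G) * y * (w : G)⁻¹ with hy₂
  have hyc : y * c = c * y := hstr.1 y hyP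
  have h22 : y₂ * x * y₂⁻¹ = c₁ * x := by
    have e0 : y * x * y⁻¹ = c * x := by rw [← hcdef]; group
    calc y₂ * x * y₂⁻¹ = (w : G) * (y * ((w : G)⁻¹ * x * w) * y⁻¹) * (w : G)⁻¹ := by
          rw [hy₂]; group
      _ = (w : G) * (y * x * y⁻¹) * (w : G)⁻¹ := by
          have : (w : G)⁻¹ * x * w = x := by rw [mul_assoc, ← hwx]; group
          rw [this]
      _ = (w : G) * (c * x) * (w : G)⁻¹ := by rw [e0]
      _ = ((w : G) * c * (w : G)⁻¹) * ((w : G) * x * (w : G)⁻¹) := by group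
      _ = c₁ * x := by rw [hwx']
  have h23 : y₂ * c₁ * y₂⁻¹ = c₁ := by
    calc y₂ * c₁ * y₂⁻¹ = (w : G) * (y * c * y⁻¹) * (w : G)⁻¹ := by
          rw [hy₂, hc₁]; group
      _ = (w : G) * c * (w : G)⁻¹ := by rw [hyc]; group
  have hxc₁ : c₁ * x = x * c₁ := hstr₁.1 c₁ hc₁S
  -- `c₁` is not in `⟨x⟩`
  have hc₁x : c₁ ∉ zpowers x := by
    intro hmem
    have h1 : c ∈ zpowers x := by
      obtain ⟨k, hk⟩ := mem_zpowers_iff.mp hmem
      refine mem_zpowers_iff.mpr ⟨k, ?_⟩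
      have hwk : (w : G) * x ^ k = x ^ k * w := Commute.zpow_right hwx k
      calc x ^ k = (w : G)⁻¹ * ((w : G) * x ^ k) := by group
        _ = (w : G)⁻¹ * (x ^ k * w) := by rw [hwk]
        _ = (w : G)⁻¹ * (c₁ * w) := by rw [hk]
        _ = c := by rw [hc₁]; group
    have h2 : zpowers c = zpowers x := mem_zpowers_of_mem hxo h1 hc1
    have h3 : x ∈ zpowers c := h2 ▸ mem_zpowers x
    obtain ⟨k, hk⟩ := mem_zpowers_iff.mp h3
    apply hc1
    have h4 : Commute y (c ^ k) := Commute.zpow_right hyc k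
    rw [← hcdef, ← hk, h4.eq]
    group
  obtain ⟨y₁, hy₁S, hy₁⟩ : ∃ y₁ ∈ (S₁ : Subgroup G), y₁ * c₁ ≠ c₁ * y₁ := by
    by_contra hcon
    push Not at hcon
    exact hc₁x (hstr₁.2.2 c₁ hc₁S hcon)
  set d := y₁ * c₁ * y₁⁻¹ * c₁⁻¹ with hd
  have hdm : d ∈ zpowers x := hstr₁.2.1 y₁ hy₁S c₁ hc₁S
  have hd1 : d ≠ 1 := by
    intro h0
    apply hy₁
    have h1 : y₁ * c₁ * y₁⁻¹ = c₁ := by
      have := congrArg (· * c₁) h0
      simpa [hd] using this
    have h2 := congrArg (· * y₁) h1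
    simpa using h2
  have hdx := mem_zpowers_of_mem hxo hdm hd1
  have hxinv : x⁻¹ ∈ zpowers d := by
    rw [hdx]
    exact inv_mem (mem_zpowers x)
  obtain ⟨e, he⟩ := mem_powers_iff_mem_zpowers.mpr hxinv
  simp only at he
  have hy₁x : y₁ * x = x * y₁ := hstr₁.1 y₁ hy₁S
  have hy₁d : y₁ * d = d * y₁ := by
    obtain ⟨k, hk⟩ := mem_zpowers_iff.mp hdm
    rw [← hk]
    exact Commute.zpow_right hy₁x k
  have hpow : ∀ n : ℕ, y₁ ^ n * c₁ * (y₁ ^ n)⁻¹ = d ^ n * c₁ := by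
    intro n
    induction n with
    | zero => simp
    | succ n ih =>
      have e1 : y₁ * c₁ * y₁⁻¹ = d * c₁ := by rw [hd]; group
      have hcomm : Commute (y₁ ^ n) d := Commute.pow_left hy₁d n
      calc y₁ ^ (n + 1) * c₁ * (y₁ ^ (n + 1))⁻¹ = y₁ ^ n * (y₁ * c₁ * y₁⁻¹) * (y₁ ^ n)⁻¹ := by
            rw [pow_succ]; group
        _ = y₁ ^ n * (d * c₁) * (y₁ ^ n)⁻¹ := by rw [e1]
        _ = (y₁ ^ n * d) * c₁ * (y₁ ^ n)⁻¹ := by group
        _ = (d * y₁ ^ n) * c₁ * (y₁ ^ n)⁻¹ := by rw [hcomm.eq]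
        _ = d * (y₁ ^ n * c₁ * (y₁ ^ n)⁻¹) := by group
        _ = d * (d ^ n * c₁) := by rw [ih]
        _ = d ^ (n + 1) * c₁ := by rw [pow_succ']; group
  set y₃ := y₁ ^ e with hy₃
  have h33 : y₃ * c₁ * y₃⁻¹ = x⁻¹ * c₁ := by rw [hy₃, hpow, he]
  have h3x : y₃ * x = x * y₃ := Commute.pow_left hy₁x e
  set τ := y₂ * y₃ * y₂ with hτ
  have ht1 : τ * x * τ⁻¹ = c₁ := by
    calc τ * x * τ⁻¹ = y₂ * (y₃ * (y₂ * x * y₂⁻¹) * y₃⁻¹) * y₂⁻¹ := by rw [hτ]; group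
      _ = y₂ * (y₃ * (c₁ * x) * y₃⁻¹) * y₂⁻¹ := by rw [h22]
      _ = y₂ * ((y₃ * c₁ * y₃⁻¹) * (y₃ * x * y₃⁻¹)) * y₂⁻¹ := by group
      _ = y₂ * ((x⁻¹ * c₁) * x) * y₂⁻¹ := by rw [h33, h3x]; group
      _ = y₂ * c₁ * y₂⁻¹ := by rw [mul_assoc x⁻¹, hxc₁]; group
      _ = c₁ := h23
  have ht2 : τ * c₁ * τ⁻¹ = x⁻¹ := by
    calc τ * c₁ * τ⁻¹ = y₂ * (y₃ * (y₂ * c₁ * y₂⁻¹) * y₃⁻¹) * y₂⁻¹ := by rw [hτ]; group
      _ = y₂ * (y₃ * c₁ * y₃⁻¹) * y₂⁻¹ := by rw [h23]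
      _ = y₂ * (x⁻¹ * c₁) * y₂⁻¹ := by rw [h33]
      _ = (y₂ * x * y₂⁻¹)⁻¹ * (y₂ * c₁ * y₂⁻¹) := by group
      _ = (c₁ * x)⁻¹ * c₁ := by rw [h22, h23]
      _ = x⁻¹ := by group
  have hy₁p : y₁ ^ p = 1 := by
    have h1 : g⁻¹ * y₁ * g ∈ (P : Subgroup G) := by
      rw [hS₁c] at hy₁S
      exact mem_map_conj.mp hy₁S
    have h2 := hexp _ h1
    have h3 := conj_pow (a := g⁻¹) (b := y₁) (i := p)
    rw [inv_inv] at h3
    rw [h3] at h2
    calc y₁ ^ p = g * (g⁻¹ * y₁ ^ p * g) * g⁻¹ := by group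
      _ = 1 := by rw [h2]; group
  have hy₂p : y₂ ^ p = 1 := by
    rw [hy₂, conj_pow, hexp y hyP]
    group
  refine ⟨x, y₁, y₂, e, hxp, hx1, hy₁p, hy₂p, ?_⟩
  show (τ * τ) * x * (τ * τ)⁻¹ = x⁻¹
  calc (τ * τ) * x * (τ * τ)⁻¹ = τ * (τ * x * τ⁻¹) * τ⁻¹ := by group
    _ = τ * c₁ * τ⁻¹ := by rw [ht1]
    _ = x⁻¹ := ht2

theorem odd_pow_inverts {σ x : G} (h : σ * x * σ⁻¹ = x⁻¹) {o : ℕ} (ho : Odd o) :
    σ ^ o * x * (σ ^ o)⁻¹ = x⁻¹ := by
  obtain ⟨k, rfl⟩ := ho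
  have hσσ : (σ * σ) * x = x * (σ * σ) := by
    have e1 : σ * x⁻¹ * σ⁻¹ = x := by
      have : σ * x⁻¹ * σ⁻¹ = (σ * x * σ⁻¹)⁻¹ := by group
      rw [this, h, inv_inv]
    calc (σ * σ) * x = (σ * (σ * x * σ⁻¹) * σ⁻¹) * (σ * σ) := by group
      _ = (σ * x⁻¹ * σ⁻¹) * (σ * σ) := by rw [h]
      _ = x * (σ * σ) := by rw [e1]
  have e2 : σ ^ (2 * k + 1) = (σ * σ) ^ k * σ := by rw [pow_succ, pow_mul, sq]
  rw [e2]
  have hk : Commute ((σ * σ) ^ k) x := Commute.pow_left hσσ k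
  have hk' : Commute ((σ * σ) ^ k) x⁻¹ := hk.inv_right
  set t := (σ * σ) ^ k with ht
  calc t * σ * x * (t * σ)⁻¹ = t * (σ * x * σ⁻¹) * t⁻¹ := by group
    _ = t * x⁻¹ * t⁻¹ := by rw [h]
    _ = x⁻¹ := by rw [hk'.eq]; group

theorem no_inverter (h : HD p G) (h2 : HD 2 G) (hp2 : p ≠ 2) {x y₁ y₂ : G} {e : ℕ}
    (hxp : x ^ p = 1) (hx1 : x ≠ 1) (hy₁ : y₁ ^ p = 1) (hy₂ : y₂ ^ p = 1)
    (hinv : ((y₂ * y₁ ^ e * y₂) * (y₂ * y₁ ^ e * y₂)) * x *
      ((y₂ * y₁ ^ e * y₂) * (y₂ * y₁ ^ e * y₂))⁻¹ = x⁻¹) : False := by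
  classical
  haveI : Fact (Nat.Prime 2) := ⟨Nat.prime_two⟩
  set τ := y₂ * y₁ ^ e * y₂ with hτ
  have hxo : orderOf x = p := orderOf_eq_prime hxp hx1
  have hpodd : Odd p := hp.out.odd_of_ne_two hp2
  have hxx : x⁻¹ ≠ x := by
    intro he
    have h3 : x ^ 2 = 1 := by
      rw [sq]
      nth_rw 1 [← he]
      group
    have h4 : p ∣ 2 := hxo ▸ orderOf_dvd_of_pow_eq_one h3
    exact hp2 ((Nat.prime_dvd_prime_iff_eq hp.out Nat.prime_two).mp h4)
  obtain ⟨a, o, ho, hn⟩ := Nat.exists_eq_two_pow_mul_odd (orderOf_pos τ).ne'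
  set ρ := τ ^ o with hρ
  have hρ2a : ρ ^ (2 ^ a) = 1 := by
    rw [hρ, ← pow_mul, mul_comm, ← hn, pow_orderOf_eq_one]
  have hρinv : (ρ * ρ) * x * (ρ * ρ)⁻¹ = x⁻¹ := by
    have e1 : ρ * ρ = (τ * τ) ^ o := ((Commute.refl τ).mul_pow o).symm
    rw [e1]
    exact odd_pow_inverts hinv ho
  have hρ1 : ρ * ρ ≠ 1 := by
    intro he
    rw [he] at hρinv
    simp only [one_mul, inv_one, mul_one] at hρinv
    exact hxx hρinv.symm
  have hZ : IsPGroup 2 (zpowers ρ) := by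
    obtain ⟨b, _, hb⟩ := (Nat.dvd_prime_pow Nat.prime_two).mp (orderOf_dvd_of_pow_eq_one hρ2a)
    exact IsPGroup.of_card (n := b) (by rw [Nat.card_zpowers, hb])
  obtain ⟨T, hT⟩ := hZ.exists_le_sylow
  have hρT : ρ ∈ (T : Subgroup G) := hT (mem_zpowers ρ)
  have hxO : x ∈ pPrimeCore 2 G := by
    rcases tri h2 T with hc | ⟨_, ⟨eq⟩⟩ | hexp
    · apply Cfsg.Agent.Lib.ZStar.Main.odd_mem_core_of_cyclic T hc
      rw [hxo]
      exact hpodd.not_two_dvd_nat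
    · have hq4 : ∀ g : QuaternionGroup 2, g ^ 4 = 1 := by decide
      set z := ρ * ρ with hz
      have hzT : z ∈ (T : Subgroup G) := mul_mem hρT hρT
      have hzz : z ^ 2 = 1 := by
        have h5 := hq4 (eq ⟨ρ, hρT⟩)
        have h6 : (⟨ρ, hρT⟩ : (T : Subgroup G)) ^ 4 = 1 := eq.injective (by rw [map_pow, h5, map_one])
        have h7 : ρ ^ 4 = 1 := by simpa using congrArg Subtype.val h6
        rw [hz, sq]
        calc ρ * ρ * (ρ * ρ) = ρ ^ 4 := by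
              simp only [pow_succ, pow_zero, one_mul, mul_assoc]
          _ = 1 := h7
      have hzo : orderOf z = 2 := orderOf_eq_prime hzz hρ1
      have huniq : ∀ t ∈ (T : Subgroup G), orderOf t = 2 → t = z := by
        intro t ht hto
        have h6 : orderOf (eq ⟨t, ht⟩) = 2 := by
          rw [MulEquiv.orderOf_eq, Subgroup.orderOf_mk]
          exact hto
        have h7 : orderOf (eq ⟨z, hzT⟩) = 2 := by
          rw [MulEquiv.orderOf_eq, Subgroup.orderOf_mk]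
          exact hzo
        have h8 := Cfsg.Agent.Lib.ZStar.Quat.eq_of_orderOf_eq_two h6
        have h9 := Cfsg.Agent.Lib.ZStar.Quat.eq_of_orderOf_eq_two h7
        have h10 := eq.injective (h8.trans h9.symm)
        exact congrArg Subtype.val h10
      have hiso := Cfsg.Agent.Lib.ZStar.Quat.isolated_of_sylow_unique (S := T) hzo huniq
      have hcore := Cfsg.Agent.Lib.ZStar.Main.zstar G z hiso x
      rw [hρinv] at hcore
      obtain ⟨k, hk⟩ := hpodd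
      have h11 : (x⁻¹ * x⁻¹) ^ k ∈ pPrimeCore 2 G := pow_mem hcore k
      have h12 : (x⁻¹ * x⁻¹) ^ k = x := by
        have e1 : (x⁻¹ * x⁻¹) ^ k = (x⁻¹) ^ (2 * k) := by rw [pow_mul, sq]
        have e2 : (x⁻¹) ^ (2 * k) * x⁻¹ = 1 := by
          rw [← pow_succ, ← hk, inv_pow, hxp, inv_one]
        rw [e1]
        exact eq_of_mul_inv_eq_one e2
      rwa [h12] at h11
    · exfalso
      apply hρ1
      rw [← sq]
      exact hexp ρ hρT
  have hall : ∀ a : G, a ^ p = 1 → a ∈ pPrimeCore 2 G := by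
    intro a ha
    by_cases ha1 : a = 1
    · rw [ha1]
      exact one_mem _
    have hao : orderOf a = p := orderOf_eq_prime ha ha1
    obtain ⟨g, hg⟩ := h (zpowers x) (zpowers a) (isPGroup_zpowers hxp) (isPGroup_zpowers ha)
      (by rw [Nat.card_zpowers, Nat.card_zpowers, hxo, hao])
    rw [MonoidHom.map_zpowers] at hg
    have h1 : a ∈ zpowers ((MulAut.conj g).toMonoidHom x) := hg ▸ mem_zpowers a
    have h2 : (MulAut.conj g).toMonoidHom x ∈ pPrimeCore 2 G :=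
      (Cfsg.pPrimeCore_normal 2 G).conj_mem x hxO g
    exact ((Subgroup.zpowers_le).mpr h2) h1
  have hτO : τ ∈ pPrimeCore 2 G :=
    mul_mem (mul_mem (hall _ hy₂) (pow_mem (hall _ hy₁) e)) (hall _ hy₂)
  have hρO : ρ ∈ pPrimeCore 2 G := pow_mem hτO o
  have h1 : orderOf ρ ∣ Nat.card (pPrimeCore 2 G) := Subgroup.orderOf_dvd_natCard _ hρO
  have h2' : orderOf ρ ∣ 2 ^ a := orderOf_dvd_of_pow_eq_one hρ2a
  have hcop := Cfsg.Agent.Lib.Core.Basic.pPrimeCore_coprime (p := 2) (G := G)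
  have h3 : Nat.Coprime (orderOf ρ) (2 ^ a) :=
    Nat.Coprime.coprime_dvd_left h1 (hcop.pow_right a)
  have h4 : orderOf ρ = 1 := Nat.Coprime.eq_one_of_dvd h3 h2'
  have h5 : ρ = 1 := orderOf_eq_one_iff.mp h4
  apply hρ1
  rw [h5, one_mul]

/-- A Sylow subgroup of exponent `p` is abelian. -/
theorem exp_comm (h : HD p G) (h2 : HD 2 G) (P : Sylow p G)
    (hexp : ∀ a ∈ (P : Subgroup G), a ^ p = 1) : IsMulCommutative (P : Subgroup G) := by
  by_contra hnc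
  by_cases hp2 : p = 2
  · subst hp2
    apply hnc
    refine ⟨⟨fun a b => Subtype.ext ?_⟩⟩
    have ha := hexp a a.2
    have hb := hexp b b.2
    have hab := hexp (a * b) (mul_mem a.2 b.2)
    rw [sq] at ha hb hab
    show (a : G) * b = b * a
    calc (a : G) * b = a * ((a : G) * b * (a * b)) * b := by rw [hab]; group
      _ = ((a : G) * a) * (b * a) * (b * b) := by group
      _ = b * a := by rw [ha, hb]; group
  · obtain ⟨x, y₁, y₂, e, h1, h2', h3, h4, h5⟩ := exists_inverter h P hexp hnc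
    exact no_inverter h h2 hp2 h1 h2' h3 h4 h5

end Cfsg.Agent.Lib.PConj.Main
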